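import Mathlib
import Cfsg.Agent.H360.Dp.Same

/-!
# `PΩ⁺(2n, q)`, `n ≥ 6` even: the simple factor in the natural characteristic (helper60, S3677)
-/

set_option autoImplicit false

namespace Cfsg.Agent.H60.DE

open Cfsg.Agent.H902.Lte Cfsg.Agent.H902.Art Cfsg.Agent.H365.Near Cfsg.Agent.H364.SpShape Cfsg.Agent.Lib.Zsigmondy

variable {X : Sh} {p g f M M' : ℕ}

/-- the combinatorial part -/
theorem shape_le {n j : ℕ} (hX : Real X p g M') (hn : 6 ≤ n) (hk : kap X + 2 * j = 2 * n)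
    (hB : (n - 2) * DM X ≤ (n - 1) * BM X) : j ≤ 2 := by
  have hok := hX.ok
  obtain ⟨m, rfl⟩ : ∃ m, n = m + 2 := ⟨n - 2, by omega⟩
  rw [show m + 2 - 2 = m by omega, show m + 2 - 1 = m + 1 by omega] at *
  have key : ∀ {a c d : ℕ}, m * (c * (a + d)) ≤ (m + 1) * (c * a) → 1 ≤ c → d * m ≤ a := by
    intro a c d h hc
    have h1 : c * (m * (a + d)) ≤ c * ((m + 1) * a) := by
      calc c * (m * (a + d)) = m * (c * (a + d)) := by ring
        _ ≤ _ := h
        _ = _ := by ring
    have h2 := Nat.le_of_mul_le_mul_left h1 (by omega)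
    have e1 : m * (a + d) = m * a + d * m := by ring
    have e2 : (m + 1) * a = m * a + a := by ring
    omega
  cases X with
  | L l =>
    have hl : 2 ≤ l := hok.1
    have h1 : 2 * (l - 1) + 2 * j = 2 * (m + 2) := hk
    have h2 : m * l ≤ (m + 1) * (l - 1) := hB
    obtain ⟨a, rfl⟩ : ∃ a, l = a + 1 := ⟨l - 1, by omega⟩
    rw [Nat.add_sub_cancel] at h1 h2
    have h3 := key (a := a) (c := 1) (d := 1) (by rw [one_mul, one_mul]; exact h2) le_rfl
    omega
  | C l =>
    have hl : 2 ≤ l := hok.1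
    have h1 : 2 * l + 2 * j = 2 * (m + 2) := hk
    have h2 : m * (2 * l) ≤ (m + 1) * (2 * (l - 1)) := hB
    obtain ⟨a, rfl⟩ : ∃ a, l = a + 1 := ⟨l - 1, by omega⟩
    rw [Nat.add_sub_cancel] at h2
    have h3 := key h2 (by norm_num)
    omega
  | U l =>
    have hl : 3 ≤ l := hok.1
    by_cases hev : Even l
    · have h1 : l + 2 * j = 2 * (m + 2) := by
        have : kap (.U l) = l := if_pos hev
        rw [this] at hk; exact hk
      have h3 : DM (.U l) = 2 * (l - 1) := if_pos hev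
      have h4 : BM (.U l) = if l = 4 then 4 else 2 * (l - 3) := if_pos hev
      rw [h3, h4] at hB
      split_ifs at hB with h5
      · subst h5
        omega
      · have : l ≠ 3 := by rintro rfl; exact absurd hev (by decide)
        obtain ⟨a, rfl⟩ : ∃ a, l = a + 3 := ⟨l - 3, by omega⟩
        rw [show a + 3 - 1 = a + 2 by omega, show a + 3 - 3 = a by omega] at hB
        have h6 := key hB (by norm_num)
        omega
    · have h1 : l - 1 + 2 * j = 2 * (m + 2) := by
        have : kap (.U l) = l - 1 := if_neg hev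
        rw [this] at hk; exact hk
      have h3 : DM (.U l) = 2 * l := if_neg hev
      have h4 : BM (.U l) = 2 * (l - 2) := if_neg hev
      rw [h3, h4] at hB
      obtain ⟨a, rfl⟩ : ∃ a, l = a + 2 := ⟨l - 2, by omega⟩
      rw [show a + 2 - 2 = a by omega] at hB
      have h6 := key hB (by norm_num)
      omega
  | D l =>
    have hl : 4 ≤ l := hok
    have h1 : 2 * l + 2 * j = 2 * (m + 2) := hk
    have h2 : m * (2 * (l - 1)) ≤ (m + 1) * (2 * (l - 2)) := hB
    obtain ⟨a, rfl⟩ : ∃ a, l = a + 2 := ⟨l - 2, by omega⟩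
    rw [show a + 2 - 1 = a + 1 by omega, show a + 2 - 2 = a by omega] at h2
    have h3 := key h2 (by norm_num)
    omega
  | DD l =>
    have hl : 4 ≤ l := hok
    have h1 : 2 * (l - 1) + 2 * j = 2 * (m + 2) := hk
    have h2 : m * (2 * l) ≤ (m + 1) * (2 * (l - 1)) := hB
    obtain ⟨a, rfl⟩ : ∃ a, l = a + 1 := ⟨l - 1, by omega⟩
    rw [Nat.add_sub_cancel] at h1 h2
    have h3 := key h2 (by norm_num)
    omega
  | G2 =>
    have h2 : m * 6 ≤ (m + 1) * 2 := hB
    omega
  | F4 =>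
    have h2 : m * 12 ≤ (m + 1) * 8 := hB
    omega
  | E6 =>
    have h2 : m * 12 ≤ (m + 1) * 9 := hB
    omega
  | E7 =>
    have h2 : m * 18 ≤ (m + 1) * 14 := hB
    omega
  | E8 =>
    have h1 : 16 + 2 * j = 2 * (m + 2) := hk
    have h2 : m * 30 ≤ (m + 1) * 24 := hB
    omega
  | TE6 =>
    have h2 : m * 18 ≤ (m + 1) * 12 := hB
    omega
  | TD4 =>
    have h2 : m * 12 ≤ (m + 1) * 6 := hB
    omega
  | Sz =>
    have h2 : m * 4 ≤ (m + 1) * 1 := hB
    omega
  | Ree =>
    have h2 : m * 6 ≤ (m + 1) * 1 := hB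
    omega
  | TF4 =>
    have h2 : m * 12 ≤ (m + 1) * 6 := hB
    omega

/-- **The order of `S` in the natural characteristic.** -/
theorem own {n j δ r s : ℕ} (hX : Real X p g M') (hY : Real (.D n) p f M) (hn : 6 ≤ n)
    (hdvd : M' ∣ M)
    (hr : r.Prime) (hro : orderOf (p : ZMod r) = f * (2 * (n - 1))) (hrM : r ∣ M')
    (hs : s.Prime) (hso : orderOf (p : ZMod s) = f * (2 * (n - 2))) (hsM : s ∣ M')
    (hexp : g * NN X + f * (n - 1) * j + δ = f * (n * (n - 1))) (hj : j = 0 ∨ 3 ≤ j) (h24 : p ^ δ ∣ 24 * g)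
    (h6 : p = 2 → 2 ^ δ ∣ 6 * g) : M' = M := by
  have hf := hY.hf
  have hg := hX.hf
  have hDY : DM (.D n) = 2 * (n - 1) := rfl
  have hG10 : 10 ≤ f * DM (.D n) := by
    rw [hDY]
    calc 10 ≤ 2 * (n - 1) := by omega
      _ ≤ _ := Nat.le_mul_of_pos_left _ hf
  have hD : g * DM X = f * DM (.D n) := by
    rcases D_cases hX hY hdvd hr (by rw [hDY]; exact hro) (by omega) hrM with h | ⟨-, -, h⟩
    · exact h
    · omega
  have hge := (DM_ge hX).1
  have h2g : 2 * g ≤ f * DM (.D n) := by rw [← hD]; nlinarith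
  have hδ := delta_lt2 hX.hp h24 h6 hg h2g (by omega)
  -- the invariant `kap`
  have h1 : 4 * (g * NN X) = (g * DM X) * kap X := by
    calc 4 * (g * NN X) = g * (4 * NN X) := by ring
      _ = _ := by rw [four_NN hX]; ring
  rw [hD, hDY] at h1
  rw [hDY] at hδ hG10
  have hk2 := kap_even hX
  have hk : kap X + 2 * j = 2 * n ∧ δ = 0 := by
    have h2 : f * (2 * (n - 1)) * (kap X + 2 * j) + 4 * δ = f * (2 * (n - 1)) * (2 * n) := by
      have e : 4 * (g * NN X + f * (n - 1) * j + δ) = 4 * (f * (n * (n - 1))) := by rw [hexp]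
      have e2 : f * (2 * (n - 1)) * (kap X + 2 * j) + 4 * δ =
        f * (2 * (n - 1)) * kap X + 4 * (f * (n - 1) * j) + 4 * δ := by ring
      have e3 : f * (2 * (n - 1)) * (2 * n) = 4 * (f * (n * (n - 1))) := by ring
      rw [e2, e3, ← h1, ← e]; ring
    generalize f * (2 * (n - 1)) = G at *
    have h3 : kap X + 2 * j ≤ 2 * n := by
      by_contra hcon
      have h4 : G * (2 * n + 1) ≤ G * (kap X + 2 * j) := Nat.mul_le_mul_left _ (by omega)
      have h5 : G * (2 * n + 1) = G * (2 * n) + G := by ring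
      omega
    have h6 : ¬ kap X + 2 * j < 2 * n := by
      intro hcon
      have h4 : G * (kap X + 2 * j + 2) ≤ G * (2 * n) := Nat.mul_le_mul_left _ (by omega)
      have h5 : G * (kap X + 2 * j + 2) = G * (kap X + 2 * j) + 2 * G := by ring
      omega
    have h7 : kap X + 2 * j = 2 * n := by omega
    refine ⟨h7, ?_⟩
    rw [h7] at h2
    omega
  obtain ⟨hk, rfl⟩ := hk
  -- the second exponent
  have hsp : s ≠ p := ne_of_order hs (show 1 ≤ f * (2 * (n - 2)) from Nat.mul_pos hf (by omega)) hso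
  have hB : (n - 2) * DM X ≤ (n - 1) * BM X := by
    rcases hX.order_cases hs hsp hsM with h | ⟨e, he, heB, h⟩
    · exfalso
      rw [hso, hD, hDY] at h
      have h4 : 2 * (n - 2) ∣ 2 * (n - 1) := Nat.dvd_of_mul_dvd_mul_left hf h
      have h5 : 2 * (n - 2) ∣ 2 := by
        have := Nat.dvd_sub h4 (dvd_refl (2 * (n - 2)))
        rwa [show 2 * (n - 1) - 2 * (n - 2) = 2 by omega] at this
      have := Nat.le_of_dvd (by norm_num) h5
      omega
    · rw [hso] at h
      have h4 : f * (2 * (n - 2)) ≤ g * BM X :=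
        (Nat.le_of_dvd (Nat.mul_pos hg he) h).trans (Nat.mul_le_mul_left _ heB)
      have h5 : f * (2 * (n - 2)) * DM X ≤ f * (2 * (n - 1)) * BM X := by
        calc f * (2 * (n - 2)) * DM X ≤ g * BM X * DM X := Nat.mul_le_mul_right _ h4
          _ = g * DM X * BM X := by ring
          _ = _ := by rw [hD, hDY]
      have h6 : (2 * f) * ((n - 2) * DM X) ≤ (2 * f) * ((n - 1) * BM X) := by
        calc (2 * f) * ((n - 2) * DM X) = f * (2 * (n - 2)) * DM X := by ring
          _ ≤ _ := h5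
          _ = _ := by ring
      exact Nat.le_of_mul_le_mul_left h6 (by omega)
  have hj2 := shape_le hX hn hk hB
  have hj0 : j = 0 := by omega
  subst hj0
  have hN : f * NN (.D n) - g * NN X = 0 := by
    have : NN (.D n) = n * (n - 1) := rfl
    rw [this]
    omega
  rcases near_out hX hY hdvd hr (by rw [hDY]; exact hro) (by rw [hDY]; omega) hrM (by rw [hN]; exact one_dvd _)
    (by rw [hN]; exact fun _ => one_dvd _) with ⟨rfl, rfl⟩ | h
  · have h1 := hX.eq
    rw [← hY.eq] at h1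
    exact Nat.eq_of_mul_eq_mul_left (Nat.pos_of_ne_zero hY.dd_ne) h1
  · exfalso
    rcases h with ⟨-, h, -⟩ | ⟨-, h, -⟩ | ⟨_, -, -, h, -⟩ | ⟨-, h, -⟩ | ⟨-, h, -⟩ | ⟨-, h, -⟩ | ⟨-, h, -⟩ | ⟨-, h, -⟩ <;>
      exact absurd h (by simp)

end Cfsg.Agent.H60.DE
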