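import Mathlib
import Cfsg.Agent.H60.DE.Data
import Cfsg.Agent.H60.DE.Own

/-!
# `PΩ⁺(2n, q)`, `n` even: orders modulo the prime divisors of `m` (helper60, S3677)
-/

set_option autoImplicit false

namespace Cfsg.Agent.H60.DE

open Cfsg.Agent.H902.Lte Cfsg.Agent.H902.Art Cfsg.Agent.H364 Cfsg.Agent.H364.DCross
open Cfsg.Agent.Lib.Zsigmondy (dvd_pow_sub_one_iff)

variable {n p f q M d m MS I : ℕ}

/-- the orders modulo the prime divisors of `m` -/
theorem Num.ord_dvd (h : Num n q d m) (hq : 2 ≤ q) {t : ℕ} (ht : t ∣ m) (htp : t.Prime) :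
    orderOf ((q : ℕ) : ZMod t) ∣ 2 * (n - 1) ∧ (d = n - 1 → 2 * (n - 1) ≠ d → orderOf ((q : ℕ) : ZMod t) ∣ n - 1) := by
  have hq1 : 1 ≤ q := by omega
  rcases h with ⟨hd, hm, -⟩ | ⟨hd, hm, -⟩
  · have h1 : t ∣ (q ^ (n - 1) + 1) * (q + 1) := by rw [← hm]; exact ht.mul_right _
    refine ⟨?_, fun h1 h2 => absurd hd.symm h2⟩
    rw [← dvd_pow_sub_one_iff hq1]
    rcases htp.dvd_mul.1 h1 with h2 | h2
    · refine h2.trans ⟨q ^ (n - 1) - 1, ?_⟩
      obtain ⟨c, hc⟩ := Nat.exists_eq_add_of_le' (Nat.one_le_pow (n - 1) q hq1)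
      rw [two_mul, pow_add, hc]
      have : (c + 1) * (c + 1) = (c + 1 + 1) * c + 1 := by ring
      rw [this]
      simp
    · have h3 : t ∣ q ^ 2 - 1 := by
        refine h2.trans ⟨q - 1, ?_⟩
        obtain ⟨c, rfl⟩ := Nat.exists_eq_add_of_le' hq1
        have : (c + 1) ^ 2 = (c + 1 + 1) * c + 1 := by ring
        rw [this]
        simp
      refine h3.trans ?_
      rw [pow_mul]
      exact Nat.sub_one_dvd_pow_sub_one _ _
  · have h1 : t ∣ (q ^ (n - 1) - 1) * (q - 1) := by rw [← hm]; exact ht.mul_right _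
    have h2 : t ∣ q ^ (n - 1) - 1 := by
      rcases htp.dvd_mul.1 h1 with h2 | h2
      · exact h2
      · exact h2.trans (Nat.sub_one_dvd_pow_sub_one _ _)
    rw [dvd_pow_sub_one_iff hq1] at h2
    exact ⟨h2.mul_left 2, fun _ _ => h2⟩

theorem Num.d_cases (h : Num n q d m) : d = 2 * (n - 1) ∨ d = n - 1 := by
  rcases h with ⟨hd, -⟩ | ⟨hd, -⟩
  · exact Or.inl hd
  · exact Or.inr hd

/-- a large prime not in the class `d` does not divide `m` -/
theorem Num.not_dvd (h : Num n q d m) (hn : 4 ≤ n) (hev : n % 2 = 0) (hq : 2 ≤ q) {r : ℕ} (hr : r.Prime) (hr2 : r ≠ 2)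
    (ho : n / 2 < orderOf ((q ^ 2 : ℕ) : ZMod r)) (hne : orderOf ((q : ℕ) : ZMod r) ≠ d) : ¬ r ∣ m := by
  intro hrm
  have hq1 : 1 ≤ q := by omega
  have hq2 : 1 ≤ q ^ 2 := Nat.one_le_pow _ _ hq1
  obtain ⟨h1, h1'⟩ := h.ord_dvd hq hrm hr
  have h2 : orderOf ((q ^ 2 : ℕ) : ZMod r) ∣ n - 1 := by
    rw [← dvd_pow_sub_one_iff hq2, ← pow_mul, dvd_pow_sub_one_iff hq1]
    exact h1
  have h3 : orderOf ((q ^ 2 : ℕ) : ZMod r) = n - 1 := by
    obtain ⟨c, hc⟩ := h2
    have hc0 : c ≠ 0 := by rintro rfl; omega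
    have hc1 : c = 1 := by
      by_contra hc1
      have h4 : orderOf ((q ^ 2 : ℕ) : ZMod r) * 2 ≤ orderOf ((q ^ 2 : ℕ) : ZMod r) * c := Nat.mul_le_mul_left _ (by omega)
      omega
    rw [hc1, mul_one] at hc
    exact hc.symm
  have h4 : n - 1 ∣ orderOf ((q : ℕ) : ZMod r) := by
    rw [← h3]
    push_cast
    exact orderOf_pow_dvd _
  obtain ⟨c, hc⟩ := h4
  have hc2 : c ∣ 2 := by
    rw [hc, mul_comm 2] at h1
    exact Nat.dvd_of_mul_dvd_mul_left (by omega) h1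
  have hc3 : c = 1 ∨ c = 2 := (Nat.dvd_prime Nat.prime_two).1 hc2
  rcases h with ⟨hd, hm, -⟩ | ⟨hd, hm, -⟩
  · rcases hc3 with rfl | rfl
    · -- `r ∣ q ^ (n - 1) - 1`
      have h5 : r ∣ q ^ (n - 1) - 1 := by
        rw [dvd_pow_sub_one_iff hq1, hc, mul_one]
      have h6 : r ∣ (q ^ (n - 1) + 1) * (q + 1) := by rw [← hm]; exact hrm.mul_right _
      rcases hr.dvd_mul.1 h6 with h7 | h7
      · have h8 := Nat.dvd_sub h7 h5
        have h9 : 1 ≤ q ^ (n - 1) := Nat.one_le_pow _ _ hq1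
        rw [show q ^ (n - 1) + 1 - (q ^ (n - 1) - 1) = 2 by omega] at h8
        exact hr2 ((Nat.prime_dvd_prime_iff_eq hr Nat.prime_two).1 h8)
      · have h8 : r ∣ (q ^ 2) ^ 1 - 1 := by
          refine h7.trans ⟨q - 1, ?_⟩
          obtain ⟨c, rfl⟩ := Nat.exists_eq_add_of_le' hq1
          have : ((c + 1) ^ 2) ^ 1 = (c + 1 + 1) * c + 1 := by ring
          rw [this]
          simp
        rw [dvd_pow_sub_one_iff hq2] at h8
        have := Nat.le_of_dvd one_pos h8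
        omega
    · exact hne (by rw [hc, hd]; ring)
  · have h5 := h1' hd (by omega)
    rw [hc] at h5
    rcases hc3 with rfl | rfl
    · exact hne (by rw [hc, hd]; ring)
    · have := Nat.le_of_dvd (by omega) h5
      omega

theorem order_sq_two_le : orderOf ((q ^ 2 : ℕ) : ZMod 2) ≤ 1 := by
  have h5 : ((q ^ 2 : ℕ) : ZMod 2) = 0 ∨ ((q ^ 2 : ℕ) : ZMod 2) = 1 := by
    generalize ((q ^ 2 : ℕ) : ZMod 2) = x
    revert x
    decide
  rcases h5 with h5 | h5
  · rw [h5]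
    have h6 : orderOf (0 : ZMod 2) = 0 := by
      rw [orderOf_eq_zero_iff']
      intro m hm
      rw [zero_pow (by omega)]
      decide
    omega
  · rw [h5, orderOf_one]

/-- the parts with large orders divide `I * |S|` -/
theorem Dat.frd (h : Dat n p f M d m MS I) : FrD n (p ^ f) I MS := by
  obtain ⟨hn, hev, hY, hnum, hMS, hI0, hbig, hper, -⟩ := h
  have hq := hY.q_ge
  intro t ht hbig'
  have ht0 : t ≠ 0 := by
    rintro rfl
    exact SpVal.AA_ne hq (Nat.eq_zero_of_zero_dvd ht)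
  have hMS0 : I * MS ≠ 0 := by
    have h1 : M ≠ 0 := hY.M_ne
    have h2 : MS ≠ 0 := by
      rintro rfl
      exact h1 (Nat.eq_zero_of_zero_dvd hMS)
    exact Nat.mul_ne_zero (by omega) h2
  rw [← Nat.factorization_le_iff_dvd ht0 hMS0]
  intro r
  by_cases hr : r.Prime
  swap
  · rw [Nat.factorization_eq_zero_of_not_prime _ hr]; exact Nat.zero_le _
  by_cases hrt : r ∣ t
  swap
  · rw [Nat.factorization_eq_zero_of_not_dvd hrt]; exact Nat.zero_le _
  have ho := hbig' r hr hrt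
  have hrq : ¬ r ∣ p ^ f := SpSmall.not_dvd_of_AA hq hr (hrt.trans ht)
  have hr2 : r ≠ 2 := by
    rintro rfl
    have := order_sq_two_le (q := p ^ f)
    omega
  have hrp : r ≠ p := by
    rintro rfl
    exact hrq (dvd_pow_self r (by have := hY.hf; omega))
  have hP : P r M ∣ I * MS := by
    by_cases hd : orderOf ((p ^ f : ℕ) : ZMod r) = d
    · exact hper r hr hd
    · refine hbig r hr hrp (hnum.not_dvd hn hev hq hr hr2 ho hd) ?_ (fun h => hr2 h.2)
      rintro ⟨h1, rfl⟩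
      rw [h1] at ho
      have h2 : orderOf ((2 ^ 2 : ℕ) : ZMod 3) = 1 := by
        rw [orderOf_eq_one_iff]; decide
      omega
  rw [← hr.pow_dvd_iff_le_factorization hMS0]
  refine dvd_trans ?_ hP
  rw [P]
  refine pow_dvd_pow r ?_
  rw [← hr.pow_dvd_iff_le_factorization hY.M_ne]
  have h1 : r ^ t.factorization r ∣ dd (.D n) (p ^ f) * M := by
    rw [hY.eq]
    exact (((Nat.ordProj_dvd t r).trans ht).mul_left _).mul_left _
  refine Nat.Coprime.dvd_of_dvd_mul_left ?_ h1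
  apply Nat.Coprime.pow_left
  apply Nat.Coprime.coprime_dvd_right (Nat.gcd_dvd_left _ _)
  show Nat.Coprime r (2 ^ 2)
  apply Nat.Coprime.pow_right
  exact (Nat.coprime_primes hr Nat.prime_two).2 hr2

/-- a prime of `p`-order `f * k` has `q`-order `k` -/
theorem ord_q {p f r k : ℕ} (hf : 1 ≤ f) (ho : orderOf (p : ZMod r) = f * k) : orderOf ((p ^ f : ℕ) : ZMod r) = k := by
  push_cast
  rw [orderOf_pow' _ (by omega), ho, Nat.gcd_eq_right (Dvd.intro _ rfl)]
  exact Nat.mul_div_cancel_left _ (by omega)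

/-- and `q ^ 2`-order `k / 2` -/
theorem ord_sq {q r k : ℕ} (ho : orderOf ((q : ℕ) : ZMod r) = 2 * k) :
    orderOf ((q ^ 2 : ℕ) : ZMod r) = k := by
  push_cast
  rw [orderOf_pow' _ (by omega), ho, Nat.gcd_eq_right (Dvd.intro _ rfl)]
  exact Nat.mul_div_cancel_left _ (by omega)

theorem Dat.dvd_of_ord (h : Dat n p f M d m MS I) {r k : ℕ} (hr : r.Prime) (hk1 : n / 2 < k) (hk2 : k < n)
    (ho : orderOf (p : ZMod r) = f * (2 * k)) : r ∣ I * MS := by
  have hq := h.hY.q_ge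
  have h1 := ord_q h.hY.hf ho
  refine h.frd r ?_ fun r' hr' hd => ?_
  · have h2 : r ∣ (p ^ f) ^ (2 * k) - 1 :=
      (Cfsg.Agent.Lib.Zsigmondy.dvd_pow_sub_one_iff (a := p ^ f) (by omega) _).2 (by rw [h1])
    refine h2.trans ?_
    rw [SpVal.AA]
    have h8 := Finset.dvd_prod_of_mem (fun i => (p ^ f) ^ (2 * (i + 1)) - 1) (show k - 1 ∈ Finset.range (n - 1) by
      rw [Finset.mem_range]; omega)
    rwa [show k - 1 + 1 = k by omega] at h8
  · have h3 := (Nat.prime_dvd_prime_iff_eq hr' hr).1 hd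
    subst h3
    rwa [ord_sq h1]

end Cfsg.Agent.H60.DE
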