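import Mathlib
import Cfsg.Agent.H429.CS.KMain
import Cfsg.Agent.H370.AAM.Perf
import Cfsg.Agent.H364.DCross
import Cfsg.Agent.S0044
import Cfsg.Agent.S0008
import Cfsg.Agent.Lib.Cores

/-!
# `PΩ₈⁺(q)`: the characteristic does not divide `|K|` (helper60, S3677)
-/

set_option autoImplicit false

namespace Cfsg.Agent.H60.DE

open Subgroup Cfsg Cfsg.Agent.H364 Cfsg.Agent.H429.CS Cfsg.Agent.H902.Lte Cfsg.Agent.H902.Art

universe u

theorem fac_self' {X : Sh} {p g MX : ℕ} (hX : Real X p g MX) : MX.factorization p = g * NN X := by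
  have h1 := hX.P_self
  rw [P, ← pow_mul] at h1
  exact Nat.pow_right_injective hX.hp.two_le h1

/-- the numbers -/
theorem four_num {q M g : ℕ} (hq : 2 ≤ q) (h : g * M = q ^ 12 * ((q ^ 4 - 1) * SpVal.AA 3 q)) :
    g * M = q ^ 12 * (q ^ 2 - 1) ^ 3 * ((q ^ 2 + 1) ^ 2 * (q ^ 6 - 1)) := by
  have h1 : SpVal.AA 3 q = (q ^ 2 - 1) * (q ^ 4 - 1) * (q ^ 6 - 1) := by
    rw [SpVal.AA, Finset.prod_range_succ, Finset.prod_range_succ, Finset.prod_range_succ, Finset.prod_range_zero]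
    norm_num
  have h2 : q ^ 4 - 1 = (q ^ 2 - 1) * (q ^ 2 + 1) := by
    have h3 : 1 ≤ q ^ 2 := Nat.one_le_pow _ _ (by omega)
    obtain ⟨c, hc⟩ := Nat.exists_eq_add_of_le' h3
    have h4 : q ^ 4 = (q ^ 2) ^ 2 := by ring
    rw [h4, hc]
    have h5 : (c + 1) ^ 2 = c * (c + 1 + 1) + 1 := by ring
    rw [h5]
    simp
  rw [h, h1, h2]
  ring

/-- **The characteristic does not divide the order of a solvable normal subgroup**, `PΩ₈⁺(q)`. -/
theorem four_not_dvd {G : Type u} [Group G] [Finite G] {p f r d : ℕ} (hY : Real (.D 4) p f (Nat.card G))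
    (hr : r.Prime) (hrp : r ≠ p) (hrG : r ∣ Nat.card G) (hro : orderOf (p : ZMod r) = f * d) (hd : d = 3 ∨ d = 6)
    (hE : NoEdge G r p)
    (hidx : ∀ x : G, x ≠ 1 → ¬ p ∣ (centralizer ({x} : Set G)).index →
      (centralizer ({x} : Set G)).index = ((p ^ f) ^ 2 + 1) ^ 2 * ((p ^ f) ^ 6 - 1))
    (K : Subgroup G) [K.Normal] (hKs : Group.IsSolvable K) (hrK : ¬ r ∣ Nat.card K)
    (hO : ∀ l : ℕ, l.Prime → l ≠ p → ∀ N : Subgroup G, N.Normal → N ≤ K → IsPGroup l N → N = ⊥) :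
    ¬ p ∣ Nat.card K := by
  intro hpK
  have hp := hY.hp
  have hf := hY.hf
  have hq := hY.q_ge
  have := Fact.mk hp
  have := Fact.mk hr
  -- the Fitting subgroup of `K`
  set F : Subgroup G := (fittingSubgroup K).map K.subtype with hFdef
  have hFc : (fittingSubgroup K).Characteristic := Cfsg.Agent.Lib.Cores.fittingSubgroup_characteristic
  have hFn : F.Normal := ConjAct.normal_of_characteristic_of_normal
  have hFnil : Group.IsNilpotent F := by
    have h1 : Group.IsNilpotent (fittingSubgroup K) := Cfsg.Agent.S0008.result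
    exact Group.nilpotent_of_mulEquiv ((fittingSubgroup K).equivMapOfInjective K.subtype K.subtype_injective)
  have hFK : F ≤ K := Subgroup.map_subtype_le _
  have hFp : ∀ l : ℕ, l.Prime → l ∣ Nat.card F → l = p := by
    intro l hl hlF
    by_contra hlp
    have := Fact.mk hl
    obtain ⟨P0⟩ : Nonempty (Sylow l F) := inferInstance
    have h1 := hO l hl hlp _ (sylow_normal_of_nilpotent hFn hFnil P0)
      ((Subgroup.map_subtype_le _).trans hFK) (P0.2.map _)
    have h2 : Nat.card ((P0 : Subgroup F).map F.subtype) = l ^ (Nat.card F).factorization l := by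
      rw [Subgroup.card_map_of_injective F.subtype_injective]
      exact P0.card_eq_multiplicity
    rw [h1, Subgroup.card_bot] at h2
    have h3 := hl.factorization_pos_of_dvd Nat.card_pos.ne' hlF
    have h4 := Nat.one_lt_pow h3.ne' hl.one_lt
    omega
  have hFne : F ≠ ⊥ := by
    intro h0
    have h1 : fittingSubgroup K = ⊥ := by
      rw [hFdef] at h0
      exact (Subgroup.map_eq_bot_iff_of_injective _ K.subtype_injective).1 h0
    have h2 : Nat.card K ≤ 1 := by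
      rw [Finite.card_le_one_iff_subsingleton]
      refine ⟨fun a b => ?_⟩
      have key : ∀ c : K, c = 1 := by
        intro c
        have h3 : c ∈ centralizer (fittingSubgroup K : Set K) := by
          rw [h1, mem_centralizer_iff]
          intro y hy
          rw [SetLike.mem_coe, mem_bot] at hy
          rw [hy, one_mul, mul_one]
        have h4 := Cfsg.Agent.S0044.result h3
        rwa [h1, mem_bot] at h4
      rw [key a, key b]
    have h3 := Nat.le_of_dvd Nat.card_pos hpK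
    have := hp.two_le
    omega
  have hFcard : ∃ k, Nat.card F = p ^ k := ⟨_, Nat.eq_prime_pow_of_unique_prime_dvd Nat.card_pos.ne' (fun {l} hl hlF => hFp l hl hlF)⟩
  have hFpg : IsPGroup p F := IsPGroup.iff_card.2 hFcard
  have hFnt : Nontrivial F := (Subgroup.nontrivial_iff_ne_bot F).2 hFne
  -- its center
  set Z : Subgroup G := (center F).map F.subtype with hZdef
  have hZn : Z.Normal := ConjAct.normal_of_characteristic_of_normal
  have hZF : Z ≤ F := Subgroup.map_subtype_le _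
  have hZp : IsPGroup p Z := hFpg.to_le hZF
  have hZne : Z ≠ ⊥ := by
    intro h0
    have h1 : center F = ⊥ := (Subgroup.map_eq_bot_iff_of_injective _ F.subtype_injective).1 h0
    have h2 : Nontrivial (center F) := hFpg.center_nontrivial
    rw [h1] at h2
    exact not_nontrivial _ h2
  have hZab : ∀ a ∈ Z, ∀ b ∈ Z, Commute a b := by
    rintro _ ⟨a, ha, rfl⟩ _ ⟨b, -, rfl⟩
    have h1 := mem_center_iff.1 ha b
    exact (congrArg Subtype.val h1).symm
  -- the number of elements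
  obtain ⟨a, ha⟩ := IsPGroup.iff_card.1 hZp
  have hva : (Nat.card Z).factorization p = a := by
    rw [ha, hp.factorization_pow, Finsupp.single_eq_same]
  have hvG : (Nat.card G).factorization p = f * 12 := by
    rw [fac_self' hY]; rfl
  have hrZ : ¬ r ∣ Nat.card Z := fun h => hrK (h.trans (Subgroup.card_dvd_of_le (hZF.trans hFK)))
  have hda : f * d ∣ a := by
    have h1 := congr_one Z hr hp hrp hrZ hE
    rw [hva] at h1
    have h2 : r ∣ p ^ a - 1 := (dvd_pow_self r (hr.factorization_pos_of_dvd Nat.card_pos.ne' hrG).ne').trans h1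
    rwa [Cfsg.Agent.Lib.Zsigmondy.dvd_pow_sub_one_iff hp.one_le, hro] at h2
  have ha12 : a ≤ f * 12 := by
    rw [← hvG, ← hva]
    exact (Nat.factorization_le_iff_dvd Nat.card_pos.ne' Nat.card_pos.ne').2 (Subgroup.card_subgroup_dvd_card Z) p
  -- a central element of a Sylow subgroup
  obtain ⟨P0⟩ : Nonempty (Sylow p G) := inferInstance
  obtain ⟨x, hxZ, hxo, hxc⟩ := Cfsg.Agent.H370.AAM.exists_central hp (P1 := (P0 : Subgroup G)) (P := Z) P0.2 hZp
    (by rw [normalizer_eq_top (H := Z)]; exact le_top) hZne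
  have hx1 : x ≠ 1 := by
    rintro rfl
    rw [orderOf_one] at hxo
    exact hp.one_lt.ne hxo
  have hPx : (P0 : Subgroup G) ≤ centralizer ({x} : Set G) := by
    intro z hz
    rw [mem_centralizer_singleton_iff]
    exact (hxc z hz).symm.eq
  have hix : ¬ p ∣ (centralizer ({x} : Set G)).index := fun h =>
    P0.not_dvd_index (h.trans (Subgroup.index_dvd_of_le hPx))
  have h0 := hidx x hx1 hix
  have hlt := (index_lt_of_normal Z hxZ).resolve_right hx1
  set q := p ^ f with hqdef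
  have hq1 : 1 ≤ q := by omega
  have ha9 : f * 9 < a := by
    rw [h0, ha] at hlt
    have h1 : q ^ 9 ≤ (q ^ 2 + 1) ^ 2 * (q ^ 6 - 1) := by
      have h2 : q ^ 6 ≤ 2 * (q ^ 6 - 1) := by
        have : 2 ^ 6 ≤ q ^ 6 := Nat.pow_le_pow_left hq 6
        omega
      have h3 : 2 * q ^ 3 ≤ (q ^ 2 + 1) ^ 2 := by nlinarith [Nat.zero_le (q ^ 2), Nat.zero_le (q ^ 3)]
      have h4 : 2 * q ^ 9 ≤ 2 * ((q ^ 2 + 1) ^ 2 * (q ^ 6 - 1)) := by
        calc 2 * q ^ 9 = 2 * q ^ 3 * q ^ 6 := by ring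
          _ ≤ (q ^ 2 + 1) ^ 2 * (2 * (q ^ 6 - 1)) := Nat.mul_le_mul h3 h2
          _ = _ := by ring
      omega
    have h5 : p ^ (f * 9) < p ^ a := by
      rw [pow_mul, ← hqdef]
      exact lt_of_le_of_lt h1 hlt
    exact (Nat.pow_lt_pow_iff_right hp.one_lt).1 h5
  have haeq : a = f * 12 := by
    have h3 : f * 3 ∣ a := by
      rcases hd with rfl | rfl
      · exact hda
      · exact Dvd.dvd.trans (⟨2, by ring⟩ : f * 3 ∣ f * 6) hda
    obtain ⟨c, rfl⟩ := h3
    have h1 : f * 9 < f * (3 * c) := by rw [← mul_assoc]; exact ha9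
    have h2 := Nat.lt_of_mul_lt_mul_left h1
    have h3 : f * (3 * c) ≤ f * 12 := by rw [← mul_assoc]; exact ha12
    have h4 := Nat.le_of_mul_le_mul_left h3 (by omega)
    have h5 : c = 4 := by omega
    rw [h5]; ring
  -- all classes in `Z`
  have hall : ∀ z ∈ Z, z ≠ 1 → (centralizer ({z} : Set G)).index = (q ^ 2 + 1) ^ 2 * (q ^ 6 - 1) := by
    intro z hz hz1
    refine hidx z hz1 fun hpi => ?_
    have h1 : Z ≤ centralizer ({z} : Set G) := by
      intro y hy
      rw [mem_centralizer_singleton_iff]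
      exact (hZab y hy z hz).eq
    have h2 := Subgroup.card_dvd_of_le h1
    have h3 := Subgroup.card_mul_index (centralizer ({z} : Set G))
    have h4 : p ^ (f * 12 + 1) ∣ Nat.card G := by
      rw [← h3, pow_succ]
      apply Nat.mul_dvd_mul _ hpi
      rw [← haeq, ← ha]
      exact h2
    have h5 := (hp.pow_dvd_iff_le_factorization Nat.card_pos.ne').1 h4
    rw [hvG] at h5
    omega
  -- a prime divisor of `q ^ 2 + 1`
  have heq : Nat.gcd 4 (q ^ 4 - 1) * Nat.card G = q ^ 12 * ((q ^ 4 - 1) * SpVal.AA 3 q) := hY.eq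
  have hnum := four_num hq heq
  obtain ⟨t, ht, ht2, htd⟩ : ∃ t : ℕ, t.Prime ∧ t ≠ 2 ∧ t ∣ q ^ 2 + 1 := by
    by_contra hcon
    push Not at hcon
    have h1 : ∀ {t : ℕ}, t.Prime → t ∣ q ^ 2 + 1 → t = 2 := fun {t} ht htd => by
      by_contra h2
      exact hcon t ht h2 htd
    have h2 := Nat.eq_prime_pow_of_unique_prime_dvd (by omega) h1
    set k := (q ^ 2 + 1).primeFactorsList.length
    rcases Nat.lt_or_ge k 2 with hk | hk
    · have h3 : 2 ^ k ≤ 2 ^ 1 := Nat.pow_le_pow_right (by norm_num) (by omega)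
      have h4 : 2 ^ 2 ≤ q ^ 2 := Nat.pow_le_pow_left hq 2
      omega
    · have h3 : 4 ∣ q ^ 2 + 1 := by
        rw [h2, show (4 : ℕ) = 2 ^ 2 by norm_num]
        exact Nat.pow_dvd_pow 2 hk
      have h4 : q ^ 2 % 4 = 0 ∨ q ^ 2 % 4 = 1 := by
        rcases Nat.even_or_odd q with ⟨c, hc⟩ | ⟨c, hc⟩
        · left
          rw [hc, show (c + c) ^ 2 = 4 * c ^ 2 by ring]
          exact Nat.mul_mod_right _ _
        · right
          rw [hc, show (2 * c + 1) ^ 2 = 4 * (c ^ 2 + c) + 1 by ring]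
          omega
      omega
  have htq : ¬ t ∣ q := fun h => by
    have h1 : t ∣ q ^ 2 := h.trans (dvd_pow_self q (by norm_num))
    have h2 := (Nat.dvd_add_right h1).1 htd
    exact ht.one_lt.ne' (Nat.dvd_one.1 h2)
  have htm : ¬ t ∣ q ^ 2 - 1 := fun h => by
    have h1 := Nat.dvd_sub htd h
    have h2 : 1 ≤ q ^ 2 := Nat.one_le_pow _ _ hq1
    rw [show q ^ 2 + 1 - (q ^ 2 - 1) = 2 by omega] at h1
    exact ht2 ((Nat.prime_dvd_prime_iff_eq ht Nat.prime_two).1 h1)
  set b := (q ^ 2 + 1).factorization t with hb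
  have hb1 : 1 ≤ b := ht.factorization_pos_of_dvd (by omega) htd
  have htb : t ^ b ∣ q ^ 2 + 1 := Nat.ordProj_dvd _ _
  have hD : t ^ (2 * b) ∣ Nat.card G := by
    have h1 : t ^ (2 * b) ∣ (q ^ 2 + 1) ^ 2 := by
      rw [mul_comm, pow_mul]; exact pow_dvd_pow_of_dvd htb 2
    have h2 : t ^ (2 * b) ∣ Nat.gcd 4 (q ^ 4 - 1) * Nat.card G := by
      rw [hnum]
      exact (h1.mul_right _).mul_left _
    have h3 : Nat.Coprime (t ^ (2 * b)) (Nat.gcd 4 (q ^ 4 - 1)) := by
      apply Nat.Coprime.pow_left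
      apply Nat.Coprime.coprime_dvd_right (Nat.gcd_dvd_left _ _)
      show Nat.Coprime t (2 ^ 2)
      apply Nat.Coprime.pow_right
      exact (Nat.coprime_primes ht Nat.prime_two).2 ht2
    exact h3.dvd_of_dvd_mul_left h2
  obtain ⟨x', hx', hx1'⟩ : ∃ x' ∈ Z, x' ≠ 1 := ⟨x, hxZ, hx1⟩
  set m' := Nat.card (centralizer ({x'} : Set G)) with hm'
  have hm'eq : m' * ((q ^ 2 + 1) ^ 2 * (q ^ 6 - 1)) = Nat.card G := by
    rw [← hall x' hx' hx1']; exact Subgroup.card_mul_index _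
  have hN0 : (q ^ 2 + 1) ^ 2 * (q ^ 6 - 1) ≠ 0 := by
    intro h
    rw [h, mul_zero] at hm'eq
    exact Nat.card_pos.ne hm'eq
  have htm' : ¬ t ∣ m' := by
    intro h
    have h1 : Nat.gcd 4 (q ^ 4 - 1) * m' = q ^ 12 * (q ^ 2 - 1) ^ 3 := by
      apply Nat.eq_of_mul_eq_mul_right (Nat.pos_of_ne_zero hN0)
      rw [← hnum, ← hm'eq]; ring
    have h2 : t ∣ q ^ 12 * (q ^ 2 - 1) ^ 3 := by rw [← h1]; exact h.mul_left _
    rcases (ht.dvd_mul).1 h2 with h3 | h3
    · exact htq (ht.dvd_of_dvd_pow h3)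
    · exact htm (ht.dvd_of_dvd_pow h3)
  have hcop : Nat.Coprime (t ^ (2 * b)) m' := Nat.Coprime.pow_left _ ((Nat.Prime.coprime_iff_not_dvd ht).2 htm')
  have hfin := dvd_card_sub_one Z hD hcop (fun z hz hz1 => by
    have h1 : Nat.card (centralizer ({z} : Set G)) * ((q ^ 2 + 1) ^ 2 * (q ^ 6 - 1)) = Nat.card G := by
      rw [← hall z hz hz1]; exact Subgroup.card_mul_index _
    have h2 : Nat.card (centralizer ({z} : Set G)) = m' :=
      Nat.eq_of_mul_eq_mul_right (Nat.pos_of_ne_zero hN0) (h1.trans hm'eq.symm)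
    rw [h2])
  rw [ha, haeq, pow_mul p, ← hqdef] at hfin
  -- `q ^ 12 - 1 = (q ^ 2 - 1) (q ^ 2 + 1) (q ^ 8 + q ^ 4 + 1)`
  have h12 : q ^ 12 - 1 = (q ^ 2 - 1) * (q ^ 8 + q ^ 4 + 1) * (q ^ 2 + 1) := by
    obtain ⟨c, hc⟩ := Nat.exists_eq_add_of_le' (Nat.one_le_pow 2 q hq1)
    have e12 : q ^ 12 = (q ^ 2) ^ 6 := by ring
    have e8 : q ^ 8 = (q ^ 2) ^ 4 := by ring
    have e4 : q ^ 4 = (q ^ 2) ^ 2 := by ring
    rw [e12, e8, e4, hc]
    have : (c + 1) ^ 6 = c * ((c + 1) ^ 4 + (c + 1) ^ 2 + 1) * (c + 1 + 1) + 1 := by ring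
    rw [this]
    simp
  rw [h12] at hfin
  have ht3 : t ≠ 3 := by
    rintro rfl
    have h1 : q ^ 2 % 3 = 0 ∨ q ^ 2 % 3 = 1 := by
      have h2 : q % 3 = 0 ∨ q % 3 = 1 ∨ q % 3 = 2 := by omega
      rcases h2 with h2 | h2 | h2 <;> simp [Nat.pow_mod, h2]
    omega
  have ht8 : ¬ t ∣ q ^ 8 + q ^ 4 + 1 := by
    intro h
    have h1 : q ^ 8 + q ^ 4 + 1 + (q ^ 2 - 1) * (q ^ 2 + 1) * 0 = q ^ 8 + q ^ 4 + 1 := by ring
    have h2 : (q ^ 2 + 1) ∣ q ^ 8 + q ^ 4 + 1 - 3 := by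
      refine ⟨(q ^ 4 + 2) * (q ^ 2 - 1), ?_⟩
      obtain ⟨c, hc⟩ := Nat.exists_eq_add_of_le' (Nat.one_le_pow 2 q hq1)
      have e8 : q ^ 8 = (q ^ 2) ^ 4 := by ring
      have e4 : q ^ 4 = (q ^ 2) ^ 2 := by ring
      rw [e8, e4, hc]
      have : (c + 1) ^ 4 + (c + 1) ^ 2 + 1 = (c + 1 + 1) * (((c + 1) ^ 2 + 2) * c) + 3 := by ring
      rw [this]
      simp
    have h3 := htd.trans h2
    have h4 := Nat.dvd_sub h h3
    have h5 : q ^ 8 + q ^ 4 + 1 - (q ^ 8 + q ^ 4 + 1 - 3) = 3 := by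
      have : 2 ^ 4 ≤ q ^ 4 := Nat.pow_le_pow_left hq 4
      omega
    rw [h5] at h4
    exact ht3 ((Nat.prime_dvd_prime_iff_eq ht Nat.prime_three).1 h4)
  have hc2 : Nat.Coprime (t ^ (2 * b)) ((q ^ 2 - 1) * (q ^ 8 + q ^ 4 + 1)) := by
    apply Nat.Coprime.pow_left
    rw [Nat.Prime.coprime_iff_not_dvd ht]
    intro h
    rcases (ht.dvd_mul).1 h with h1 | h1
    · exact htm h1
    · exact ht8 h1
  have h6 := hc2.dvd_of_dvd_mul_left hfin
  have h7 := (ht.pow_dvd_iff_le_factorization (by omega)).1 h6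
  omega

end Cfsg.Agent.H60.DE
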